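import Cfsg.Agent.Fgs1.PClasses
import Cfsg.Agent.FrobNil.C
import Cfsg.Agent.SolvStr.Schmidt
import Cfsg.Agent.Pgp.G

/-!
# Many classes of `π`-elements: counting lemmas
-/

namespace CF.KPi

open Subgroup CF.Solv CF.Coprime CF.Fgs1 CF.Fgs2 CF.FrobNil Cfsg
open scoped Pointwise commutatorElement IsMulCommutative

universe u

/-- The `s`-part of `n`. -/
def pp (s : Finset ℕ) (n : ℕ) : ℕ := ∏ q ∈ s, q ^ n.factorization q

theorem pp_mul (s : Finset ℕ) {a b : ℕ} (ha : a ≠ 0) (hb : b ≠ 0) :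
    pp s (a * b) = pp s a * pp s b := by
  simp only [pp, Nat.factorization_mul ha hb, Finsupp.add_apply, pow_add, Finset.prod_mul_distrib]

theorem pp_eq_one {s : Finset ℕ} {a : ℕ} (hs : ∀ q ∈ s, q.Prime) (h : PiNum (s : Set ℕ)ᶜ a) :
    pp s a = 1 :=
  Finset.prod_eq_one fun q hq => by
    rw [Nat.factorization_eq_zero_of_not_dvd fun hd => h q (hs q hq) hd hq, pow_zero]

theorem pp_eq_self {s : Finset ℕ} {a : ℕ} (ha : a ≠ 0) (h : PiNum (s : Set ℕ) a) :
    pp s a = a := by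
  conv_rhs => rw [← Nat.prod_factorization_pow_eq_self ha]
  rw [Finsupp.prod_of_support_subset _ (s := s) (fun r hr => by
    have := Nat.mem_primeFactors.mp hr
    exact h r this.1 this.2.1) _ (by simp)]
  rfl

theorem piNum_pp {s : Finset ℕ} (hs : ∀ q ∈ s, q.Prime) (a : ℕ) : PiNum (s : Set ℕ) (pp s a) := by
  intro r hr hd
  obtain ⟨q, hq, h⟩ := (Prime.dvd_finset_prod_iff hr.prime _).mp hd
  rwa [(Nat.prime_dvd_prime_iff_eq hr (hs q hq)).mp (hr.dvd_of_dvd_pow h)]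

theorem pp_pos {s : Finset ℕ} (hs : ∀ q ∈ s, q.Prime) (a : ℕ) : 0 < pp s a :=
  Finset.prod_pos fun q hq => pow_pos (hs q hq).pos _

theorem le_of_piNum {s : Finset ℕ} {r n : ℕ} (hr : ∀ q ∈ s, r ≤ q) (h : PiNum (s : Set ℕ) n)
    (h0 : n ≠ 0) (h1 : n ≠ 1) : r ≤ n :=
  (hr _ (h _ (Nat.minFac_prime h1) (Nat.minFac_dvd n))).trans
    (Nat.minFac_le (Nat.pos_of_ne_zero h0))

variable {G : Type u} [Group G] [Finite G]

theorem card_hall {s : Finset ℕ} (hs : ∀ q ∈ s, q.Prime) {H : Subgroup G}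
    (h : IsPiHall (s : Set ℕ) H) : Nat.card H = pp s (Nat.card G) := by
  rw [← H.card_mul_index, pp_mul s Nat.card_pos.ne' index_ne_zero_of_finite,
    pp_eq_self Nat.card_pos.ne' h.1, pp_eq_one hs (isPiHall_piNum_index h), mul_one]

/-- number of classes meeting `S` -/
noncomputable def kc (S : Set G) : ℕ := (ConjClasses.mk '' S).ncard

theorem kc_mul {S : Set G} (hS : ∀ x ∈ S, ∀ y, IsConj x y → y ∈ S) :
    kc S * Nat.card G = cp S Set.univ := by
  rw [← card_classes_mul S hS, kc, ← Nat.card_coe_set_eq]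
  rfl

theorem kc_le_of {S T : Set G} (h : ∀ x ∈ S, ∃ y ∈ T, IsConj x y) : kc S ≤ kc T := by
  refine Set.ncard_le_ncard ?_
  rintro _ ⟨x, hx, rfl⟩
  obtain ⟨y, hy, e⟩ := h x hx
  exact ⟨y, hy, ConjClasses.mk_eq_mk_iff_isConj.2 e.symm⟩

theorem kc_le_ncard (S : Set G) : kc S ≤ S.ncard := Set.ncard_image_le

omit [Finite G] in
theorem kc_union_le (S T : Set G) : kc (S ∪ T) ≤ kc S + kc T := by
  rw [kc, Set.image_union]
  exact Set.ncard_union_le _ _

omit [Finite G] in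
theorem piElts_conj (π : Set ℕ) : ∀ x ∈ piElts π G, ∀ y, IsConj x y → y ∈ piElts π G := by
  intro x hx y h
  change PiNum _ (orderOf y)
  rwa [← orderOf_eq_of_isConj h]

theorem kpi_eq (s : Finset ℕ) : kpi s G = kc (piElts s G) :=
  Nat.eq_of_mul_eq_mul_right Nat.card_pos (by rw [kpi_mul_card, kc_mul (piElts_conj _)])

theorem mul_kc_le {S : Set G} (n : ℕ) (h : ∀ a ∈ S, n ≤ {b | b ∈ S ∧ IsConj b a}.ncard) :
    n * kc S ≤ S.ncard :=
  mul_ncard_image_le _ (Set.toFinite _) n fun a ha => by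
    simp only [ConjClasses.mk_eq_mk_iff_isConj]
    exact h a ha

theorem kc_le_of_fibers {D Z : Subgroup G} (hZ : Z ≤ D) (n : ℕ)
    (h : ∀ a ∈ (D : Set G) \ Z, n ≤ {b | b ∈ (D : Set G) \ Z ∧ IsConj b a}.ncard) :
    n * kc (D : Set G) + Nat.card Z ≤ n * Nat.card Z + Nat.card D := by
  have h2 := mul_kc_le n h
  have h3 : kc (D : Set G) ≤ Nat.card Z + kc ((D : Set G) \ Z) := by
    conv_lhs => rw [← Set.union_diff_cancel (show (Z : Set G) ⊆ D from hZ)]
    refine (kc_union_le _ _).trans (Nat.add_le_add_right ?_ _)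
    rw [← ncard_coe_subgroup]
    exact kc_le_ncard _
  have h4 : ((D : Set G) \ Z).ncard + Nat.card Z = Nat.card D := by
    rw [← ncard_coe_subgroup, Set.ncard_diff_add_ncard_of_subset hZ, ncard_coe_subgroup]
  have := Nat.mul_le_mul_left n h3
  rw [mul_add] at this
  omega

/-- Orbits under conjugation by `U` are long. -/
theorem le_ncard_fiber {U : Subgroup G} {S : Set G} {a : G} {n : ℕ}
    (hn : ∀ q : ℕ, q.Prime → q ∣ Nat.card U → n ≤ q) (ha : ¬ U ≤ centralizer {a})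
    (hS : ∀ u ∈ U, u * a * u⁻¹ ∈ S) : n ≤ {b | b ∈ S ∧ IsConj b a}.ncard := by
  let _ : MulAction U G := MulAction.compHom G ((MulAut.conj (G := G)).comp U.subtype)
  have h1 : (MulAction.orbit U a).ncard ≤ {b | b ∈ S ∧ IsConj b a}.ncard := by
    refine Set.ncard_le_ncard ?_
    rintro _ ⟨u, rfl⟩
    exact ⟨hS u u.2, (isConj_iff.2 ⟨u, rfl⟩ : IsConj a (u * a * (u : G)⁻¹)).symm⟩
  refine le_trans ?_ h1
  rw [← MulAction.index_stabilizer]
  have h2 : (MulAction.stabilizer U a).index ≠ 1 := fun e => ha fun u hu => by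
    have : (⟨u, hu⟩ : U) ∈ MulAction.stabilizer U a := index_eq_one.mp e ▸ mem_top _
    have h3 : u * a * u⁻¹ = a := this
    exact mem_centralizer_singleton_iff.mpr (mul_inv_eq_iff_eq_mul.mp h3)
  exact (hn _ (Nat.minFac_prime h2) ((Nat.minFac_dvd _).trans (index_dvd_card _))).trans
    (Nat.minFac_le (Nat.pos_of_ne_zero index_ne_zero_of_finite))

theorem cp_le_sum (σ τ : Set ℕ) (U : Set G) (Y : Finset G) (hU : U ⊆ piElts (σ ∪ τ) G)
    (h : ∀ u ∈ U, ∀ a b : G, u = a * b → Commute a b → PiNum σ (orderOf a) →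
      PiNum τ (orderOf b) → a ∈ Y) :
    cp U Set.univ ≤ ∑ y : Y, cp (piElts τ (centralizer ({(y : G)} : Set G))) Set.univ := by
  choose a ha b hb h1 h2 h3 h4 using exists_pi_decomp (G := G) σ
  have h5 : ∀ u ∈ U, PiNum τ (orderOf (b u)) := fun u hu q hq hd =>
    (hU hu q hq (hd.trans (orderOf_dvd_of_mem_zpowers (hb _)))).resolve_left (h4 _ q hq hd)
  unfold cp
  rw [← Nat.card_sigma]
  refine Nat.card_le_card_of_injective (fun z => ⟨⟨a z.1.1, h _ z.2.1 _ _ (h1 _) (h2 _) (h3 _)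
    (h5 _ z.2.1)⟩, ⟨(⟨b z.1.1, ?_⟩, ⟨z.1.2, ?_⟩), ?_, trivial, ?_⟩⟩) ?_
  · exact Subgroup.mem_centralizer_singleton_iff.2 (h2 _).symm
  · exact Subgroup.mem_centralizer_singleton_iff.2
      (commute_of_mem_zpowers z.2.2.2 (ha _)).symm
  · intro q hq hd
    rw [Subgroup.orderOf_mk] at hd
    exact h5 _ z.2.1 q hq hd
  · exact Subtype.ext (commute_of_mem_zpowers z.2.2.2 (hb _))
  · rintro ⟨⟨x, y⟩, hx⟩ ⟨⟨x', y'⟩, hx'⟩ h
    have e1 := congrArg (fun w => (w.1 : G)) h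
    have e2 := congrArg (fun w => (w.2.1.1 : G)) h
    have e3 := congrArg (fun w => (w.2.1.2 : G)) h
    simp only at e1 e2 e3
    simp only [Subtype.mk.injEq, Prod.mk.injEq]
    exact ⟨by rw [h1 x, h1 x', e1, e2], e3⟩

/-- Wielandt's theorem inside a subgroup. -/
theorem wiel {π : Set ℕ} {R L K : Subgroup G} [Group.IsNilpotent R] (hR : IsPiHallOf π R L)
    (hK : K ≤ L) (h : PiNum π (Nat.card K)) : ∃ c ∈ L, MulAut.conj c • K ≤ R := by
  have := isNilpotent_subgroupOf R L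
  obtain ⟨x, hx⟩ := SolvStr.wielandt_hall (isPiHallOf_iff_subgroupOf.mp hR).2
    (piNum_card_subgroupOf h L)
  refine ⟨x, x.2, fun k hk => ?_⟩
  rw [Solv.mem_conj_smul_iff] at hk
  have := hx (conj_mem_conj_smul (H := K.subgroupOf L) (x := ⟨_, hK hk⟩) hk x)
  simpa [mem_subgroupOf, mul_assoc] using this

theorem wiel_eq {π : Set ℕ} {R L K : Subgroup G} [Group.IsNilpotent R] (hR : IsPiHallOf π R L)
    (hK : K ≤ L) (h : Nat.card K = Nat.card R) : ∃ c ∈ L, MulAut.conj c • K = R := by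
  obtain ⟨c, hc, e⟩ := wiel hR hK (h ▸ hR.2.1)
  exact ⟨c, hc, eq_of_le_of_card_ge e (by rw [card_smul, h])⟩

/-- Isolated elements of `G'` lie in `H'`. -/
theorem mem_comm_of_isolated {H : Subgroup G} {w : G} (hw : w ∈ H) (hw' : w ∈ commutator G)
    (key : ∀ (k : ℕ) (g : G), g⁻¹ * w ^ k * g ∈ H → g⁻¹ * w ^ k * g = w ^ k)
    (hc : (orderOf w).Coprime H.index) : w ∈ ⁅H, H⁆ := by
  have h1 := MonoidHom.transfer_eq_pow (Abelianization.of (G := H)) w key
  rw [MonoidHom.mem_ker.mp (Abelianization.commutator_subset_ker _ hw')] at h1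
  have h2 : (⟨w ^ H.index, pow_mem hw _⟩ : H) ∈ commutator H :=
    (QuotientGroup.eq_one_iff _).mp h1.symm
  have h3 : w ^ H.index ∈ ⁅H, H⁆ := by
    rw [← map_subtype_commutator]
    exact mem_map_of_mem H.subtype h2
  exact zpowers_le_of_mem h3 (mem_zpowers_pow_iff.mpr hc.symm)

theorem card_modEq_cent {p : ℕ} [Fact p.Prime] {A Z : Subgroup G} (hA : IsPGroup p A)
    (hAZ : A ≤ normalizer (Z : Set G)) :
    Nat.card Z ≡ Nat.card (Z ⊓ centralizer (A : Set G) : Subgroup G) [MOD p] := by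
  let _ : MulAction A Z := MulAction.compHom Z (inclusion hAZ)
  have h1 := hA.card_modEq_card_fixedPoints Z
  have h2 : Nat.card (MulAction.fixedPoints A Z) =
      Nat.card (Z ⊓ centralizer (A : Set G) : Subgroup G) := by
    refine Nat.card_congr ⟨fun z => ⟨z.1, z.1.2, fun a ha => ?_⟩,
      fun z => ⟨⟨z.1, z.2.1⟩, fun a => Subtype.ext ?_⟩, fun _ => rfl, fun _ => rfl⟩
    · have : a * z.1 * a⁻¹ = z.1 := congrArg Subtype.val (z.2 ⟨a, ha⟩)
      rwa [mul_inv_eq_iff_eq_mul] at this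
    · change (a : G) * z.1 * (a : G)⁻¹ = z.1
      rw [mul_inv_eq_iff_eq_mul]
      exact z.2.2 a a.2
  rwa [h2] at h1

theorem sq_mul_card_le {p : ℕ} [hp : Fact p.Prime] {P R : Subgroup G} (hP : IsPGroup p P)
    (hRP : R ≤ normalizer (P : Set G)) (hR : ∀ q : ℕ, q.Prime → q ∣ Nat.card R → p < q)
    (h : ¬ R ≤ centralizer (P : Set G)) :
    p ^ 2 * Nat.card (P ⊓ centralizer (R : Set G) : Subgroup G) ≤ Nat.card P := by
  obtain ⟨q, hq, hqR, S, hS, hSc⟩ : ∃ q : ℕ, q.Prime ∧ q ∣ Nat.card R ∧ ∃ S, IsSylowOf q S R ∧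
      ¬ S ≤ centralizer (P : Set G) := by
    by_contra hc
    push Not at hc
    refine h (le_of_forall_isSylowOf fun q hq hd => ?_)
    have := Fact.mk hq
    obtain ⟨S, hS⟩ := exists_isSylowOf q R
    exact ⟨S, hS, hc q hq hd S hS⟩
  have := Fact.mk hq
  have h1 := card_modEq_cent hS.isPGroup (hS.le.trans hRP)
  set C := P ⊓ centralizer (S : Set G)
  have h2 := Solv.card_mul_relIndex (inf_le_left : C ≤ P)
  obtain ⟨e, he⟩ : ∃ e, C.relIndex P = p ^ e := hP.index _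
  refine (Nat.mul_le_mul_left _ (card_le_of_le (inf_le_inf_left _
    (centralizer_le (SetLike.coe_subset_coe.mpr hS.le))))).trans ?_
  rw [← h2, he, mul_comm]
  refine Nat.mul_le_mul_left _ (Nat.pow_le_pow_right hp.out.pos ?_)
  by_contra hlt
  interval_cases e
  · exact hSc (le_centralizer_iff.mp ((relIndex_eq_one.mp he).trans inf_le_right))
  · rw [← h2, he, pow_one] at h1
    have h3 : q ∣ Nat.card C * (p - 1) := by
      rw [Nat.mul_sub_one]
      exact (Nat.modEq_iff_dvd' (Nat.le_mul_of_pos_right _ hp.out.pos)).mp h1.symm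
    have h4 := hR q hq hqR
    rcases (Nat.Prime.dvd_mul hq).mp h3 with h5 | h5
    · obtain ⟨k, hk⟩ := IsPGroup.iff_card.mp (hP.to_le (inf_le_left : C ≤ P))
      rw [hk] at h5
      exact h4.ne' ((Nat.prime_dvd_prime_iff_eq hq hp.out).mp (hq.dvd_of_dvd_pow h5))
    · have := Nat.le_of_dvd (by have := hp.out.two_le; omega) h5
      omega

/-- The basic inequality between `k(P)` and `|P'|`. -/
theorem kp_ineq {p : ℕ} [hp : Fact p.Prime] (P : Sylow p G) :
    ∃ i e : ℕ, 0 < i ∧ Nat.card (commutator (P : Subgroup G)) = p ^ e ∧ Nat.card P = p ^ e * i ∧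
      p ^ 2 * kp p G + i ≤ p ^ e * i + p ^ 2 * i := by
  obtain ⟨e, he⟩ := IsPGroup.iff_card.mp (P.isPGroup'.to_subgroup (commutator (P : Subgroup G)))
  have h1 := Pgp.sq_mul_conj_le (G := (P : Subgroup G)) (p := p) fun m hm hd => by
    obtain ⟨k, hk⟩ := IsPGroup.iff_card.mp P.isPGroup'
    rw [hk] at hd
    obtain ⟨j, -, rfl⟩ := (Nat.dvd_prime_pow hp.out).mp hd
    exact Nat.le_self_pow (by rintro rfl; exact hm rfl) p
  have h2 := (commutator (P : Subgroup G)).card_mul_index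
  have h3 := Nat.mul_le_mul_left (p ^ 2) (kp_le_card P)
  refine ⟨_, e, Nat.pos_of_ne_zero index_ne_zero_of_finite, he, by rw [← he]; exact h2.symm, ?_⟩
  rw [← he, h2]
  omega

theorem card_comm_le {p : ℕ} [hp : Fact p.Prime] (P : Sylow p G) (h : Nat.card P < p * kp p G) :
    Nat.card (commutator (P : Subgroup G)) ≤ p := by
  obtain ⟨i, e, hi, h1, h2, h3⟩ := kp_ineq P
  rw [h1]
  by_contra hc
  have he : 2 ≤ e := by
    by_contra h4
    exact hc ((Nat.pow_le_pow_right hp.out.pos (by omega : e ≤ 1)).trans_eq (pow_one p))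
  have h4 : p ^ 2 * i ≤ p ^ e * i := Nat.mul_le_mul_right _ (Nat.pow_le_pow_right hp.out.pos he)
  rw [h2] at h
  have h5 := hp.out.two_le
  generalize p ^ e * i = n at *
  nlinarith

theorem comm_of_kp {p : ℕ} [hp : Fact p.Prime] (P : Sylow p G)
    (h : Nat.card P * (p ^ 2 + p - 1) < p ^ 3 * kp p G) : IsMulCommutative (P : Subgroup G) := by
  obtain ⟨i, e, hi, h1, h2, h3⟩ := kp_ineq P
  have he : e = 0 := by
    by_contra h4
    have h5 : p * i ≤ p ^ e * i := Nat.mul_le_mul_right _ (Nat.le_self_pow h4 p)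
    rw [h2] at h
    have h6 := hp.out.two_le
    generalize p ^ e * i = n at *
    obtain ⟨t, ht⟩ : ∃ t, p ^ 2 = t + 1 := ⟨p ^ 2 - 1, by have := pow_pos hp.out.pos 2; omega⟩
    rw [show p ^ 3 = p * p ^ 2 by ring, ht, show t + 1 + p - 1 = t + p by omega] at h
    rw [ht] at h3
    nlinarith
  rw [he, pow_zero, card_eq_one] at h1
  exact ⟨⟨fun a b => commutatorElement_eq_one_iff_mul_comm.mp
    (mem_bot.mp (h1 ▸ commutator_mem_commutator (mem_top a) (mem_top b)))⟩⟩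

end CF.KPi
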