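import Cfsg.Agent.KPi.A

/-!
# Many classes of `π`-elements: the master inequality
-/

namespace CF.KPi

open Subgroup CF.Solv CF.Coprime CF.Fgs1 CF.Fgs2 CF.FrobNil Cfsg
open scoped Pointwise commutatorElement IsMulCommutative

universe u

variable {G : Type u} [Group G] [Finite G]

/-- elements centralizing a conjugate of `R` -/
def XX (R : Subgroup G) : Set G := {y | ∃ g : G, g * y * g⁻¹ ∈ centralizer (R : Set G)}

omit [Finite G] in
theorem XX_conj {R : Subgroup G} {y : G} (g : G) (h : g * y * g⁻¹ ∈ XX R) : y ∈ XX R := by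
  obtain ⟨k, hk⟩ := h
  exact ⟨k * g, by simpa [mul_assoc] using hk⟩

omit [Finite G] in
theorem mem_XX {R : Subgroup G} {y : G} (h : y ∈ centralizer (R : Set G)) : y ∈ XX R :=
  ⟨1, by simpa using h⟩

theorem kpi_le_pp {s : Finset ℕ} (hs : ∀ q ∈ s, q.Prime) : kpi s G ≤ pp s (Nat.card G) :=
  Nat.le_of_mul_le_mul_right (by rw [kpi_mul_card]; exact cp_piElts_le_prod s hs G) Nat.card_pos

theorem conj_into {p : ℕ} [Fact p.Prime] {Q L : Subgroup G} (hQ : IsSylowOf p Q L) {a : G}
    (ha : a ∈ L) (hp : PiNum {p} (orderOf a)) : ∃ c ∈ L, c * a * c⁻¹ ∈ Q := by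
  obtain ⟨S, hS, h⟩ := exists_isSylowOf_ge (zpowers_le_of_mem ha)
    (isPGroup_iff_piNum_singleton.mpr (by rwa [Nat.card_zpowers]))
  obtain ⟨c, hc, e⟩ := hS.conj hQ
  exact ⟨c, hc, e ▸ conj_mem_conj_smul (h (mem_zpowers a)) c⟩

theorem orderOf_conj' (g a : G) : orderOf (g * a * g⁻¹) = orderOf a :=
  (orderOf_eq_of_isConj (isConj_iff.2 ⟨g, rfl⟩)).symm

theorem master {p r : ℕ} [hp : Fact p.Prime] {μ : Finset ℕ} (hμ : ∀ q ∈ μ, q.Prime)
    (hr : ∀ q ∈ μ, r ≤ q) {R Q : Subgroup G} [IsMulCommutative R] (hR : IsPiHall (μ : Set ℕ) R)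
    (hQ : IsSylowOf p Q (centralizer (R : Set G)))
    (ih : ∀ K : Subgroup G, K ≠ ⊤ → pp μ (Nat.card K) < r * kpi μ K →
      ∃ H : Subgroup K, IsPiHall (μ : Set ℕ) H ∧ Group.IsNilpotent H) (P : Sylow p G) :
    r * kpi (insert p μ) G ≤ r * kc ((Q ⊔ R : Subgroup G) : Set G) +
      Nat.card R * kc (((P : Subgroup G) : Set G) \ XX R) := by
  classical
  have := Fintype.ofFinite G
  have := isNilpotent_of_isMulCommutative R
  let U : Set G := {u | u ∈ piElts ({p} ∪ μ) G ∧ ¬ ∃ d ∈ Q ⊔ R, IsConj u d}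
  let Y : Finset G := Finset.univ.filter fun y => y ∈ piElts {p} G ∧ y ∉ XX R
  have hY : ∀ y, y ∈ Y ↔ y ∈ piElts {p} G ∧ y ∉ XX R := by simp [Y]
  have h1 : kpi (insert p μ) G ≤ kc ((Q ⊔ R : Subgroup G) : Set G) + kc U := by
    rw [kpi_eq]
    refine le_trans (kc_le_of fun x hx => ?_) (kc_union_le _ _)
    by_cases h : ∃ d ∈ Q ⊔ R, IsConj x d
    · obtain ⟨d, hd, e⟩ := h
      exact ⟨d, Or.inl hd, e⟩
    · exact ⟨x, Or.inr ⟨by simpa using hx, h⟩, IsConj.refl x⟩
  have h2 : kc U * Nat.card G ≤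
      ∑ y : Y, cp (piElts μ (centralizer ({(y : G)} : Set G))) Set.univ := by
    rw [kc_mul (S := U) fun x hx y e => ⟨piElts_conj _ x hx.1 y e, fun ⟨d, hd, e'⟩ =>
      hx.2 ⟨d, hd, e.trans e'⟩⟩]
    refine cp_le_sum {p} μ U Y (fun u hu => hu.1) fun u hu a b e hab ha hb => (hY a).mpr ⟨ha, ?_⟩
    rintro ⟨g, hg⟩
    obtain ⟨c, -, hc⟩ := conj_into hQ hg (by rwa [orderOf_conj'])
    have hRa : R ≤ centralizer {c * (g * a * g⁻¹) * c⁻¹} := fun z hz =>
      mem_centralizer_singleton_iff.mpr (mem_centralizer_iff.mp (hQ.le hc) z hz)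
    obtain ⟨k, hk, hk'⟩ := wiel (K := zpowers (c * (g * b * g⁻¹) * c⁻¹))
      (isPiHallOf_of_isPiHall hR hRa) (zpowers_le_of_mem (mem_centralizer_singleton_iff.mpr (by
        calc c * (g * b * g⁻¹) * c⁻¹ * (c * (g * a * g⁻¹) * c⁻¹) =
            c * g * (b * a) * (c * g)⁻¹ := by group
          _ = _ := by rw [← hab.eq]; group)))
      (by rwa [Nat.card_zpowers, orderOf_conj', orderOf_conj'])
    refine hu.2 ⟨_, mul_mem (mem_sup_left hc) (mem_sup_right (hk' (conj_mem_conj_smul
      (mem_zpowers _) k))), isConj_iff.2 ⟨k * c * g, ?_⟩⟩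
    have h3 := mem_centralizer_singleton_iff.mp hk
    calc k * c * g * u * (k * c * g)⁻¹ =
        k * (c * (g * a * g⁻¹) * c⁻¹) * (c * (g * b * g⁻¹) * c⁻¹) * k⁻¹ := by rw [e]; group
      _ = _ := by rw [h3]; group
  have h3 : ∀ y : Y, r * cp (piElts μ (centralizer ({(y : G)} : Set G))) Set.univ ≤
      Nat.card R * Nat.card (centralizer ({(y : G)} : Set G)) := by
    intro y
    have hy := ((hY y).mp y.2).2
    rw [← kpi_mul_card, ← mul_assoc]
    refine Nat.mul_le_mul_right _ ?_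
    set K := centralizer ({(y : G)} : Set G)
    have h4 : pp μ (Nat.card K) * pp μ K.index = Nat.card R := by
      rw [card_hall hμ hR, ← K.card_mul_index, pp_mul μ Nat.card_pos.ne' index_ne_zero_of_finite]
    by_cases h5 : pp μ K.index = 1
    · by_contra h6
      rw [h5, mul_one] at h4
      obtain ⟨H, hH, hHn⟩ := ih K (fun e => hy (mem_XX (mem_centralizer_iff.mpr fun z _ =>
        mem_centralizer_singleton_iff.mp (show z ∈ K from e ▸ mem_top z)))) (by omega)
      obtain ⟨c, -, e⟩ := wiel_eq (K := H.map K.subtype) (isPiHallOf_top_iff.mpr hR) le_top (by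
        rw [card_map_of_injective K.subtype_injective, card_hall hμ hH, h4])
      refine hy ⟨c, ?_⟩
      rw [← e, centralizer_conj_smul]
      refine conj_mem_conj_smul (mem_centralizer_iff.mpr fun z hz => ?_) c
      exact mem_centralizer_singleton_iff.mp (map_subtype_le H hz)
    · rw [← h4, mul_comm]
      exact Nat.mul_le_mul (kpi_le_pp hμ) (le_of_piNum hr (piNum_pp hμ _) (pp_pos hμ _).ne' h5)
  have h4 : r * kc U * Nat.card G ≤ Nat.card R * kc (Y : Set G) * Nat.card G := by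
    rw [mul_assoc, mul_assoc, kc_mul (S := (Y : Set G)) fun x hx y e => by
      obtain ⟨g, rfl⟩ := isConj_iff.1 e
      exact (hY _).mpr ⟨piElts_conj _ x ((hY x).mp hx).1 _ e,
        fun h => ((hY x).mp hx).2 (XX_conj g h)⟩]
    refine (Nat.mul_le_mul_left r h2).trans ?_
    rw [Finset.mul_sum, cp_eq_sum_univ, Finset.mul_sum, ← Finset.sum_coe_sort Y]
    exact Finset.sum_le_sum fun y _ => h3 y
  have h5 : kc (Y : Set G) ≤ kc (((P : Subgroup G) : Set G) \ XX R) := kc_le_of fun y hy => by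
    obtain ⟨c, -, hc⟩ := conj_into (isSylowOf_top P) (mem_top y) ((hY y).mp hy).1
    exact ⟨_, ⟨hc, fun h => ((hY y).mp hy).2 (XX_conj c h)⟩, isConj_iff.2 ⟨c, rfl⟩⟩
  have h6 := (Nat.le_of_mul_le_mul_right h4 Nat.card_pos).trans (Nat.mul_le_mul_left _ h5)
  have h7 := Nat.mul_le_mul_left r h1
  rw [mul_add] at h7
  omega

section Cases

variable {p r : ℕ} [hp : Fact p.Prime] {μ : Finset ℕ} (hμ : ∀ q ∈ μ, q.Prime)
  (hr : ∀ q ∈ μ, r ≤ q) (hpr : p < r) {R Q : Subgroup G} [IsMulCommutative R]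
  (hR : IsPiHall (μ : Set ℕ) R) (hQ : IsSylowOf p Q (centralizer (R : Set G)))

include hr hpr hR in
omit [IsMulCommutative R] in
theorem cop {U : Subgroup G} (hU : IsPGroup p U) : (Nat.card U).Coprime (Nat.card R) :=
  Solv.coprime_card_of_isPGroup hU ((Nat.Prime.coprime_iff_not_dvd hp.out).mpr fun h =>
    (hr p (hR.1 p hp.out h)).not_gt hpr).symm

include hr hpr hR hQ in
omit [IsMulCommutative R] in
theorem card_D : Nat.card (Q ⊔ R : Subgroup G) = Nat.card Q * Nat.card R :=
  card_sup_of_inf_eq_bot (hQ.le.trans (centralizer_le_normalizer _))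
    (inf_eq_bot_of_coprime (cop hr hpr hR hQ.isPGroup))

include hr hpr hR hQ in
omit [IsMulCommutative R] in
/-- an element centralizing `y z` centralizes `z` -/
theorem cent_part {y z t : G} (hy : y ∈ Q) (hz : z ∈ R) (h : t * (y * z) = y * z * t) :
    t * z = z * t := by
  have hc : Commute y z := (mem_centralizer_iff.mp (hQ.le hy) z hz).symm
  have h1 : z ^ Nat.card Q ∈ zpowers (y * z) := by
    refine ⟨Nat.card Q, ?_⟩
    simp only [zpow_natCast]
    rw [hc.mul_pow, show y ^ Nat.card Q = 1 from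
      congrArg Subtype.val (pow_card_eq_one' (x := (⟨y, hy⟩ : Q))), one_mul]
  have h2 : z ∈ zpowers (z ^ Nat.card Q) := mem_zpowers_pow_iff.mpr
    ((cop hr hpr hR hQ.isPGroup).coprime_dvd_right (Subgroup.orderOf_dvd_natCard R hz))
  obtain ⟨k, hk⟩ := zpowers_le_of_mem h1 h2
  simp only at hk
  rw [← hk]
  exact (Commute.zpow_right h k).eq

include hr hpr hR hQ in
/-- `p` divides `|N(R) : C(R)|`. -/
theorem caseA {T : Subgroup G} (hT : IsPGroup p T) (hQT : Q ≤ T)
    (hTR : T ≤ normalizer (R : Set G)) (hTc : ¬ T ≤ centralizer (R : Set G)) {k : ℕ}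
    (hm : ∀ P : Sylow p G, r * k ≤ r * kc ((Q ⊔ R : Subgroup G) : Set G) +
      Nat.card R * kc (((P : Subgroup G) : Set G) \ XX R)) (P : Sylow p G) :
    p * k ≤ Nat.card P * Nat.card R := by
  obtain ⟨P', hP'⟩ := hT.exists_le_sylow
  rw [Nat.card_congr (P.equiv P').toEquiv]
  have hm' := hm P'
  have hQe : T ⊓ centralizer (R : Set G) = Q :=
    hQ.eq_of_le (le_inf hQT hQ.le) inf_le_right (hT.to_le inf_le_left)
  have hTQ : T ≤ normalizer (Q : Set G) := hQe ▸
    le_normalizer_inf le_normalizer (hTR.trans (normalizer_le_normalizer_centralizer R))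
  have hTD := le_normalizer_sup hTQ hTR
  set D := Q ⊔ R
  set Z := D ⊓ centralizer (T : Set G)
  have h1 := kc_le_of_fibers (inf_le_left : Z ≤ D) p fun a ha => le_ncard_fiber (U := T)
    (fun q hq hd => (isPGroup_iff_piNum_singleton.mp hT q hq hd).ge)
    (fun h => ha.2 ⟨ha.1, mem_centralizer_iff.mpr fun t ht =>
      mem_centralizer_singleton_iff.mp (h ht)⟩)
    (fun u hu => ⟨conj_mem_of_le_normalizer hTD hu ha.1, fun h => ha.2 ⟨ha.1, by
      have := conj_mem_of_le_normalizer (le_normalizer.trans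
        (normalizer_le_normalizer_centralizer T)) (inv_mem hu) h.2
      simpa [mul_assoc] using this⟩⟩)
  have h2 : r * Nat.card Z ≤ Nat.card D := by
    rw [← Solv.card_mul_relIndex (inf_le_left : Z ≤ D), mul_comm]
    refine Nat.mul_le_mul_left _ (le_trans ?_
      (relIndex_le_of_le_right (le_sup_right : R ≤ D) index_ne_zero_of_finite))
    exact le_of_piNum hr (PiNum.of_dvd hR.1 (relIndex_dvd_card _ _)) index_ne_zero_of_finite
      fun e => hTc (le_centralizer_iff.mp ((relIndex_eq_one.mp e).trans inf_le_right))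
  have h3 : kc (((P' : Subgroup G) : Set G) \ XX R) + Nat.card Q ≤ Nat.card P' := by
    rw [← ncard_coe_subgroup, ← ncard_coe_subgroup,
      ← Set.ncard_diff_add_ncard_of_subset (show (Q : Set G) ⊆ (P' : Subgroup G) from hQT.trans hP')]
    exact Nat.add_le_add_right ((kc_le_ncard _).trans (Set.ncard_le_ncard
      (Set.diff_subset_diff_right fun y hy => mem_XX (hQ.le hy)))) _
  have h4 : p * Nat.card Q ≤ Nat.card P' := mul_card_le_of_lt P'.isPGroup'
    (lt_of_lt_of_le (lt_of_le_of_ne hQT fun e => hTc (e ▸ hQ.le)) hP')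
  have h5 := card_D hr hpr hR hQ
  change Nat.card D = _ at h5
  change _ + Nat.card Z ≤ p * Nat.card Z + _ at h1
  rw [h5] at h1 h2
  have h6 := hp.out.two_le
  generalize Nat.card Q = a at *
  generalize Nat.card R = b at *
  generalize Nat.card P' = c at *
  generalize Nat.card Z = z at *
  generalize kc (D : Set G) = A at *
  generalize kc (((P' : Subgroup G) : Set G) \ XX R) = B at *
  obtain ⟨q, rfl⟩ : ∃ q, p = q + 1 := ⟨p - 1, by omega⟩
  obtain ⟨s, rfl⟩ : ∃ s, r = q + 2 + s := ⟨r - (q + 2), by omega⟩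
  -- `r p A ≤ (p - 1 + r) a b`
  have e1 : (q + 2 + s) * ((q + 1) * A) ≤ (2 * q + 2 + s) * (a * b) := by nlinarith
  have e2 : b * B + b * a ≤ b * c := by rw [← mul_add]; exact Nat.mul_le_mul_left _ h3
  have e3 : (q + 1) * (a * b) ≤ c * b := by rw [← mul_assoc]; exact Nat.mul_le_mul_right _ h4
  have e4 : (q + 2 + s) * ((q + 1) * k) + (q + 1) * (a * b) ≤
      (2 * q + 2 + s) * (a * b) + (q + 1) * (c * b) := by nlinarith
  refine Nat.le_of_mul_le_mul_left (c := (q + 2 + s) * (q + 1)) ?_ (by positivity)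
  nlinarith [Nat.mul_le_mul_left (q + 1 + s) e3, Nat.mul_le_mul_left (q + 1) e4,
    Nat.zero_le (q * s * (c * b))]

include hr hpr hR hQ in
omit [IsMulCommutative R] in
/-- `R` normalizes a Sylow `p`-subgroup. -/
theorem caseB (P : Sylow p G) (hRP : R ≤ normalizer ((P : Subgroup G) : Set G))
    (hQP : Q ≤ P) (hc : ¬ R ≤ centralizer ((P : Subgroup G) : Set G)) {k : ℕ}
    (hm : r * k ≤ r * kc ((Q ⊔ R : Subgroup G) : Set G) +
      Nat.card R * kc (((P : Subgroup G) : Set G) \ XX R)) :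
    p * k ≤ Nat.card P * Nat.card R := by
  have h1 := (Nat.mul_le_mul_left _ (card_le_of_le (le_inf hQP hQ.le))).trans
    (sq_mul_card_le P.isPGroup' hRP (fun q hq hd => hpr.trans_le (hr q (hR.1 q hq hd))) hc)
  have h2 := kc_le_ncard ((Q ⊔ R : Subgroup G) : Set G)
  rw [ncard_coe_subgroup, card_D hr hpr hR hQ] at h2
  have h3 := (mul_kc_le (S := ((P : Subgroup G) : Set G) \ XX R) r fun a ha =>
    le_ncard_fiber (U := R) (fun q hq hd => hr q (hR.1 q hq hd))
      (fun h => ha.2 (mem_XX (mem_centralizer_iff.mpr fun t ht =>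
        mem_centralizer_singleton_iff.mp (h ht))))
      (fun u hu => ⟨conj_mem_of_le_normalizer hRP hu ha.1, fun h => ha.2 (XX_conj u h)⟩)).trans
    (Set.ncard_le_ncard Set.diff_subset)
  rw [ncard_coe_subgroup] at h3
  have h6 := hp.out.two_le
  generalize Nat.card Q = a at *
  generalize Nat.card R = b at *
  generalize Nat.card P = c at *
  generalize kc ((Q ⊔ R : Subgroup G) : Set G) = A at *
  generalize kc (((P : Subgroup G) : Set G) \ XX R) = B at *
  have e1 : p ^ 2 * A ≤ c * b := by nlinarith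
  have e2 : p ^ 2 * (b * B) ≤ r * (c * b) := by
    have : p * (r * B) ≤ r * c := Nat.mul_le_mul hpr.le h3
    have h7 : p * B ≤ c := Nat.le_of_mul_le_mul_left (c := r) (by nlinarith) (by omega)
    calc p ^ 2 * (b * B) = p * b * (p * B) := by ring
      _ ≤ r * b * c := Nat.mul_le_mul (Nat.mul_le_mul_right _ hpr.le) h7
      _ = _ := by ring
  refine Nat.le_of_mul_le_mul_left (c := r * p) ?_ (Nat.mul_pos (by omega) (by omega))
  nlinarith [Nat.mul_le_mul_left (p ^ 2) hm, Nat.mul_le_mul_left r e1,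
    Nat.mul_le_mul_right (r * (c * b)) h6]

include hr hpr hR hQ in
/-- No quotients. -/
theorem caseC (hodd : p ≠ 2 → p + 2 ≤ r) (P : Sylow p G) (hQP : Q < P) (hR1 : R ≠ ⊥)
    (hRG : R ≤ commutator G) (hPG : (P : Subgroup G) ≤ commutator G)
    (hP' : Nat.card (commutator (P : Subgroup G)) ≤ p) {k : ℕ}
    (hm : r * k ≤ r * kc ((Q ⊔ R : Subgroup G) : Set G) +
      Nat.card R * kc (((P : Subgroup G) : Set G) \ XX R)) :
    p * k ≤ Nat.card P * Nat.card R := by
  have := isNilpotent_of_isMulCommutative R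
  -- every nontrivial element of `R` is moved by `N(Q) ∩ N(R)`
  have hmove : ∀ z ∈ R, (∀ t ∈ normalizer (Q : Set G) ⊓ normalizer (R : Set G), t * z = z * t) →
      z = 1 := by
    intro z hz h
    have h1 : ∀ n ∈ normalizer (R : Set G), n * z = z * n := by
      intro n hn
      obtain ⟨c, hc, e⟩ := (hQ.conj_smul (normalizer_le_normalizer_centralizer R hn)).conj hQ
      rw [conj_smul_conj_smul, conj_smul_eq_iff] at e
      have h2 := h _ ⟨e, mul_mem (centralizer_le_normalizer _ hc) hn⟩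
      rw [mul_assoc, ← mul_assoc z, mem_centralizer_iff.mp hc z hz, mul_assoc] at h2
      exact mul_left_cancel h2
    have h2 := mem_comm_of_isolated hz (hRG hz) (fun j g hg => by
      have h3 : R ≤ centralizer {g⁻¹ * z ^ j * g} := fun x hx =>
        mem_centralizer_singleton_iff.mpr (mem_centralizer_iff.mp (le_cent_self R hg) x hx)
      obtain ⟨c, hc, e⟩ := wiel_eq (K := MulAut.conj g⁻¹ • R) (isPiHallOf_of_isPiHall hR h3)
        (fun x hx => by
          rw [Solv.mem_conj_smul_iff, inv_inv] at hx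
          have := mem_centralizer_iff.mp (le_cent_self R (pow_mem hz j)) _ hx
          refine mem_centralizer_singleton_iff.mpr ?_
          calc x * (g⁻¹ * z ^ j * g) = g⁻¹ * (g * x * g⁻¹ * z ^ j) * g := by group
            _ = _ := by rw [this]; group) (card_smul _ _)
      rw [conj_smul_conj_smul, conj_smul_eq_iff] at e
      have h4 := (Commute.pow_right (h1 _ e) j).eq
      have h5 := mem_centralizer_singleton_iff.mp hc
      calc g⁻¹ * z ^ j * g = c⁻¹ * (c * (g⁻¹ * z ^ j * g)) := by group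
        _ = c⁻¹ * (c * g⁻¹ * z ^ j) * g := by group
        _ = c⁻¹ * (z ^ j * (c * g⁻¹)) * g := by rw [h4]
        _ = c⁻¹ * z ^ j * c := by group
        _ = c⁻¹ * (c * g⁻¹ * z ^ j * g * c⁻¹) * c := by rw [h4]; group
        _ = c⁻¹ * (c * (g⁻¹ * z ^ j * g) * c⁻¹) * c := by group
        _ = c⁻¹ * (c * (g⁻¹ * z ^ j * g)) := by group
        _ = z ^ j := by
          have h6 : c * (g⁻¹ * z ^ j * g) * c⁻¹ = z ^ j := by
            calc c * (g⁻¹ * z ^ j * g) * c⁻¹ = c * g⁻¹ * z ^ j * (c * g⁻¹)⁻¹ := by group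
              _ = _ := by rw [h4]; group
          rw [h5, mul_inv_cancel_right] at h6
          rw [inv_mul_cancel_left, h6])
      ((isPiHall_coprime hR).coprime_dvd_left (Subgroup.orderOf_dvd_natCard R hz))
    rwa [commutator_eq_bot_iff_le_centralizer.mpr (le_cent_self R), mem_bot] at h2
  have h1 := kc_le_of_fibers (le_sup_left : Q ≤ Q ⊔ R) 2 fun a ha => le_ncard_fiber
    (U := normalizer (Q : Set G) ⊓ normalizer (R : Set G)) (fun q hq _ => hq.two_le)
    (fun h => by
      obtain ⟨y, hy, z, hz, rfl⟩ := (mem_sup_of_le_normalizer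
        (hQ.le.trans (centralizer_le_normalizer _))).mp ha.1
      have := hmove z hz fun t ht =>
        cent_part hr hpr hR hQ hy hz (mem_centralizer_singleton_iff.mp (h ht))
      exact ha.2 (by rw [this, mul_one]; exact hy))
    (fun u hu => ⟨conj_mem_of_le_normalizer (le_normalizer_sup inf_le_left inf_le_right) hu ha.1,
      fun h => ha.2 (by
        have := conj_mem_of_le_normalizer le_rfl (inv_mem hu.1) h
        simpa [mul_assoc] using this)⟩)
  rw [card_D hr hpr hR hQ] at h1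
  obtain ⟨W, hW, -⟩ := exists_fusion_center P
  have hWP : W ≤ P := fun w hw => ((hW w).1 hw).1
  have hW' : W ≤ ⁅(P : Subgroup G), (P : Subgroup G)⁆ := fun w hw =>
    mem_comm_of_isolated (hWP hw) (hPG (hWP hw)) (fun j g hg => by
      simpa using ((hW _).1 (pow_mem hw j)).2 g⁻¹ (by simpa using hg))
      ((P.card_coprime_index).coprime_dvd_left (Subgroup.orderOf_dvd_natCard _ (hWP hw)))
  have h2 : Nat.card W ≤ p := by
    refine (card_le_of_le hW').trans ?_
    rwa [← map_subtype_commutator, card_map_of_injective (subtype_injective _)]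
  have h3 : p * Nat.card W ≤ Nat.card P := by
    have := P.isPGroup'.isNilpotent
    exact mul_card_le_of_lt P.isPGroup' (hW'.trans_lt
      (commutator_lt_of_isNilpotent le_rfl le_normalizer (bot_le.trans_lt hQP).ne'))
  have h4 := kc_le_of_fibers hWP 2 fun a ha => by
    obtain ⟨g, hg, hne⟩ : ∃ g : G, g * a * g⁻¹ ∈ (P : Subgroup G) ∧ g * a * g⁻¹ ≠ a := by
      by_contra hc
      push Not at hc
      exact ha.2 ((hW a).2 ⟨ha.1, hc⟩)
    rw [← Set.ncard_pair hne]
    refine Set.ncard_le_ncard ?_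
    rintro b (rfl | rfl)
    · refine ⟨⟨hg, fun hb => hne ?_⟩, (isConj_iff.2 ⟨g, rfl⟩).symm⟩
      have := ((hW _).1 hb).2 g⁻¹ (by
        rw [show g⁻¹ * (g * a * g⁻¹) * g⁻¹⁻¹ = a by group]; exact ha.1)
      rw [← this]; group
    · exact ⟨ha, IsConj.refl _⟩
  have h5 : kc (((P : Subgroup G) : Set G) \ XX R) + 1 ≤ kc ((P : Subgroup G) : Set G) := by
    refine Set.ncard_lt_ncard (Set.ssubset_iff_of_subset (Set.image_mono Set.diff_subset) |>.mpr
      ⟨ConjClasses.mk 1, ⟨1, one_mem _, rfl⟩, ?_⟩)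
    rintro ⟨y, hy, e⟩
    rw [ConjClasses.mk_eq_mk_iff_isConj, isConj_one_left] at e
    exact hy.2 (mem_XX (e ▸ one_mem _))
  have h6 := mul_card_le_of_lt P.isPGroup' hQP
  have h7 : r ≤ Nat.card R := le_of_piNum hr hR.1 Nat.card_pos.ne' fun e => hR1 (card_eq_one.mp e)
  have h8 := hp.out.two_le
  have h9 : p * (Nat.card P + Nat.card W) + Nat.card P ≤ r * Nat.card P + 2 * p := by
    by_cases h : p = 2
    · nlinarith
    · nlinarith [hodd h]
  generalize Nat.card Q = a at *
  generalize Nat.card R = b at *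
  generalize Nat.card P = c at *
  generalize Nat.card W = w at *
  generalize kc ((Q ⊔ R : Subgroup G) : Set G) = A at *
  generalize kc (((P : Subgroup G) : Set G) \ XX R) = B at *
  generalize kc ((P : Subgroup G) : Set G) = C at *
  have e1 : 2 * (p * A) ≤ c + c * b := by nlinarith
  have e2 : 2 * (p * B) + c ≤ r * c := by nlinarith
  refine Nat.le_of_mul_le_mul_left (c := 2 * r) ?_ (by omega)
  nlinarith [Nat.mul_le_mul_left (2 * p) hm, Nat.mul_le_mul_left r e1, Nat.mul_le_mul_left b e2,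
    Nat.mul_le_mul_right c h7]

end Cases

end CF.KPi
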