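import Cfsg.Agent.KPi.B

/-!
# Many classes of `π`-elements force a nilpotent Hall subgroup
-/

namespace CF.KPi

open Subgroup CF.Solv CF.Coprime CF.Fgs1 CF.Fgs2 CF.FrobNil Cfsg
open scoped Pointwise commutatorElement IsMulCommutative

universe u

variable {G : Type u} [Group G] [Finite G]

theorem comm_of_nil {π : Set ℕ} {K : Subgroup G} [Group.IsNilpotent K] (hK : PiNum π (Nat.card K))
    (h : ∀ q ∈ π, q.Prime → ∀ P : Sylow q G, IsMulCommutative (P : Subgroup G)) :
    IsMulCommutative K := by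
  refine isMulCommutative_of_le_cent (le_of_forall_isPGroup_le fun q hq U hU hUq =>
    le_centralizer_iff.mp (le_of_forall_isPGroup_le fun r hr V hV hVr => ?_))
  by_cases e : r = q
  · subst e
    by_cases hU1 : U = ⊥
    · rw [hU1]; exact fun x _ => mem_centralizer_iff.mpr fun y hy => by simp [mem_bot.mp hy]
    obtain ⟨P, hP⟩ := (pc_isPGroup r K).exists_le_sylow
    have := h r (hK r hr.out ((dvd_card_of_ne_bot hUq hU1).trans (card_dvd_of_le hU))) hr.out P
    exact ((le_pc hV (isPGroup_iff_piNum_singleton.mp hVr)).trans hP).trans ((le_cent_self _).trans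
      (centralizer_le (SetLike.coe_subset_coe.mpr
        ((le_pc hU (isPGroup_iff_piNum_singleton.mp hUq)).trans hP))))
  · exact le_centralizer_of_coprime_of_isNilpotent hV hU (coprime_of_ne e hVr hUq)

theorem exists_normal_of_not_le {σ : Set ℕ} {U : Subgroup G} (hU : PiNum σ (Nat.card U))
    (h : ¬ U ≤ commutator G) : ∃ N : Subgroup G, N.Normal ∧ N ≠ ⊤ ∧ PiNum σ N.index := by
  have : IsMulCommutative (G ⧸ commutator G) :=
    Normal.quotient_commutative_iff_commutator_le.mpr le_rfl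
  have := isNilpotent_of_isMulCommutative (G ⧸ commutator G)
  refine ⟨(piCore σᶜ (G ⧸ commutator G)).comap (QuotientGroup.mk' _), inferInstance, fun e => h ?_,
    ?_⟩
  · rw [← map_mk'_eq_bot_iff, ← card_eq_one]
    refine (piNum_card_map hU _).eq_one (piNum_card_of_le piCore_piNum ?_)
    exact map_le_iff_le_comap.mpr (e ▸ le_top)
  · rw [index_comap_mk']
    simpa using isPiHall_piNum_index (isPiHall_piCore_of_isNilpotent (G := G ⧸ commutator G) σᶜ)

theorem pc_hall (π : Set ℕ) (M : Subgroup G) [Group.IsNilpotent M] : IsPiHallOf π (pc π M) M :=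
  isPiHallOf_map_subtype_iff.mpr (isPiHall_piCore_of_isNilpotent π)

theorem kp_big {s : Finset ℕ} (hs : ∀ q ∈ s, q.Prime) {a b q : ℕ} [Fact q.Prime] (hq : q ∈ s)
    (h : pp s (Nat.card G) * a < b * kpi s G) (P : Sylow q G) : Nat.card P * a < b * kp q G := by
  have h1 := kpi_le (G := G) s hs hq
  rw [pp, ← Finset.mul_prod_erase s _ hq, ← P.card_eq_multiplicity] at h
  refine Nat.lt_of_mul_lt_mul_right (a := ∏ r ∈ s.erase q, r ^ (Nat.card G).factorization r) ?_
  nlinarith [Nat.mul_le_mul_left b h1]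

theorem sylow_comm {s : Finset ℕ} (hs : ∀ q ∈ s, q.Prime) {p q : ℕ} (hq : q ∈ s) (hpq : p < q)
    (h : pp s (Nat.card G) < p * kpi s G) (P : Sylow q G) : IsMulCommutative (P : Subgroup G) := by
  have := Fact.mk (hs q hq)
  have h1 := kp_big hs (a := 1) hq (by rwa [mul_one]) P
  refine comm_of_kp P ?_
  obtain ⟨t, rfl⟩ : ∃ t, q = t + 1 := ⟨q - 1, by omega⟩
  rw [show (t + 1) ^ 2 + (t + 1) - 1 = t ^ 2 + 3 * t + 1 by
    rw [Nat.sub_eq_iff_eq_add (by omega)]; ring]
  have h2 : Nat.card P < t * kp (t + 1) G := by nlinarith [Nat.zero_le (kp (t + 1) G)]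
  nlinarith [Nat.mul_lt_mul_of_pos_right h2 (show 0 < t ^ 2 + 3 * t + 1 by positivity),
    Nat.zero_le (kp (t + 1) G)]

theorem hall_aux (n : ℕ) : ∀ (G : Type u) [Group G] [Finite G], Nat.card G = n →
    ∀ s : Finset ℕ, (∀ q ∈ s, q.Prime) → ∀ p : ℕ, (∀ q ∈ s, p ≤ q) →
      pp s (Nat.card G) < p * kpi s G →
      ∃ H : Subgroup G, IsPiHall (s : Set ℕ) H ∧ Group.IsNilpotent H := by
  induction n using Nat.strong_induction_on with
  | _ n ihn =>
  intro G _ _ hn s
  induction s using Finset.induction_on_min with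
  | empty =>
    intro _ _ _ _
    exact ⟨⊥, ⟨fun q hq hd => by simp [hq.ne_one] at hd, by simp⟩, inferInstance⟩
  | insert p μ hlt ihs =>
  intro hs p0 hp0 h0
  have hp : Fact p.Prime := ⟨hs p (Finset.mem_insert_self _ _)⟩
  have hμ : ∀ q ∈ μ, q.Prime := fun q hq => hs q (Finset.mem_insert_of_mem hq)
  have hpμ : p ∉ μ := fun h => (hlt p h).false
  have h : pp (insert p μ) (Nat.card G) < p * kpi (insert p μ) G :=
    h0.trans_le (Nat.mul_le_mul_right _ (hp0 p (Finset.mem_insert_self _ _)))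
  have hsub1 : ((insert p μ : Finset ℕ) : Set ℕ)ᶜ ⊆ (μ : Set ℕ)ᶜ :=
    Set.compl_subset_compl.mpr (by simp)
  have hsub2 : ((insert p μ : Finset ℕ) : Set ℕ)ᶜ ⊆ ({p} : Set ℕ)ᶜ :=
    Set.compl_subset_compl.mpr (by simp)
  have hsub3 : ({p} : Set ℕ) ⊆ (μ : Set ℕ)ᶜ := by simpa using hpμ
  have hsub4 : (μ : Set ℕ) ⊆ ({p} : Set ℕ)ᶜ := Set.subset_compl_comm.mp hsub3
  obtain ⟨r, hr, hpr, hodd⟩ : ∃ r, (∀ q ∈ μ, r ≤ q) ∧ p < r ∧ (p ≠ 2 → p + 2 ≤ r) := by
    by_cases h2 : p = 2
    · exact ⟨p + 1, hlt, by omega, fun h => (h h2).elim⟩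
    · refine ⟨p + 2, fun q hq => ?_, by omega, fun _ => le_rfl⟩
      have h3 := hlt q hq
      have h4 := (hμ q hq).eq_two_or_odd
      have h5 := hp.out.eq_two_or_odd
      have h6 := hp.out.two_le
      omega
  have hpp : ∀ (P : Sylow p G) (R : Subgroup G), IsPiHall (μ : Set ℕ) R →
      pp (insert p μ) (Nat.card G) = Nat.card P * Nat.card R := fun P R hR => by
    rw [pp, Finset.prod_insert hpμ, P.card_eq_multiplicity, card_hall hμ hR, pp]
  have hcomm : ∀ (R : Subgroup G), Group.IsNilpotent R → PiNum μ (Nat.card R) →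
      IsMulCommutative R := fun R _ hR => comm_of_nil hR fun q hq _ P =>
    sylow_comm hs (Finset.mem_insert_of_mem hq) (hlt q hq) h P
  have ih : ∀ K : Subgroup G, K ≠ ⊤ → pp μ (Nat.card K) < r * kpi μ K →
      ∃ H : Subgroup K, IsPiHall (μ : Set ℕ) H ∧ Group.IsNilpotent H := fun K hK =>
    ihn _ (hn ▸ card_lt_of_ne_top hK) K rfl μ hμ r hr
  have ihN : ∀ N : Subgroup G, N.Normal → N ≠ ⊤ → ∃ M : Subgroup G,
      IsPiHallOf ((insert p μ : Finset ℕ) : Set ℕ) M N ∧ Group.IsNilpotent M := by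
    intro N _ hN
    obtain ⟨M, hM, _⟩ := ihn _ (hn ▸ card_lt_of_ne_top hN) N rfl _ hs p
      (fun q hq => (Finset.mem_insert.mp hq).elim (fun e => e.ge) fun h => (hlt q h).le) (by
      have h1 := cp_piElts_le ((insert p μ : Finset ℕ) : Set ℕ) N
      rw [← kpi_mul_card, ← kpi_mul_card, ← kpi_mul_card, mul_mul_mul_comm,
        show Nat.card N * Nat.card (G ⧸ N) = Nat.card G from N.card_mul_index] at h1
      have h2 := (Nat.le_of_mul_le_mul_right h1 Nat.card_pos).trans
        (Nat.mul_le_mul_left _ (kpi_le_pp hs))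
      rw [← N.card_mul_index, pp_mul _ Nat.card_pos.ne' index_ne_zero_of_finite] at h
      refine Nat.lt_of_mul_lt_mul_right (h.trans_le ?_)
      rw [mul_assoc]
      exact Nat.mul_le_mul_left _ h2)
    exact ⟨_, isPiHallOf_map_subtype_iff.mpr hM, isNilpotent_map _ _⟩
  by_contra hcon
  have hno : ∀ R Q : Subgroup G, Group.IsNilpotent R → IsPiHall (μ : Set ℕ) R →
      IsSylowOf p Q (centralizer (R : Set G)) → p ∣ Q.index := by
    intro R Q _ hR hQ
    by_contra hd
    have := hQ.isPGroup.isNilpotent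
    refine hcon ⟨Q ⊔ R, ⟨?_, fun q hq hm hd' => ?_⟩, isNilpotent_sup_of_le_centralizer hQ.le⟩
    · rw [card_D hr hpr hR hQ]
      exact ((isPGroup_iff_piNum_singleton.mp hQ.isPGroup).mono (by simp)).mul
        (PiNum.mono hR.1 (by simp))
    · rcases Finset.mem_insert.mp hm with rfl | hm
      · exact hd (hd'.trans (index_dvd_of_le le_sup_left))
      · exact hR.2 q hq hm (hd'.trans (index_dvd_of_le le_sup_right))
  obtain ⟨R, hR, hRn⟩ := ihs hμ p (fun q hq => (hlt q hq).le) (by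
    have h1 := cp_piElts_union_le (G := G) μ {p} (by simpa using hp.out)
    rw [show ((μ : Set ℕ) ∪ ({p} : Finset ℕ)) = (insert p μ : Finset ℕ) by simp, ← kpi_mul_card,
      ← kpi_mul_card, ← mul_assoc, Finset.prod_singleton] at h1
    have h2 := Nat.le_of_mul_le_mul_right h1 Nat.card_pos
    rw [pp, Finset.prod_insert hpμ] at h
    refine Nat.lt_of_mul_lt_mul_left (h.trans_le ?_)
    rw [mul_left_comm]
    exact Nat.mul_le_mul_left _ h2)
  have := hcomm R hRn hR.1
  obtain ⟨Q, hQ⟩ := exists_isSylowOf p (centralizer (R : Set G))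
  obtain ⟨P, hQP⟩ := hQ.isPGroup.exists_le_sylow
  by_cases hPG : (P : Subgroup G) ≤ commutator G
  swap
  · obtain ⟨N, _, hN, hNi⟩ := exists_normal_of_not_le
      (isPGroup_iff_piNum_singleton.mp P.isPGroup') hPG
    obtain ⟨M, hM, _⟩ := ihN N inferInstance hN
    have h1 : IsPiHallOf (μ : Set ℕ) (pc μ M) N :=
      isPiHallOf_trans (pc_hall _ M) hM.1 ((isPiHallOf_iff.mp hM).2.2.mono hsub1)
    have h2 : IsPiHallOf {p} (pc {p} M) N :=
      isPiHallOf_trans (pc_hall _ M) hM.1 ((isPiHallOf_iff.mp hM).2.2.mono hsub2)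
    have h3 := isPiHall_of_isPiHallOf h1 (hNi.mono hsub3)
    have h4 : Group.IsNilpotent (pc μ M) := isNilpotent_of_le (pc_le _ M)
    have := hcomm _ h4 h3.1
    have h5 : pc {p} M ≤ centralizer (pc μ M : Set G) := le_centralizer_of_coprime_of_isNilpotent
      (pc_le _ M) (pc_le _ M) (cop hr hpr h3 (pc_isPGroup p M))
    obtain ⟨Q1, hQ1, -⟩ := exists_isSylowOf_ge h5 (pc_isPGroup p M)
    obtain ⟨T, hT, hQT⟩ := exists_isSylowOf_ge (hQ1.le.trans (centralizer_le_normalizer _))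
      hQ1.isPGroup
    refine h.not_ge ?_
    rw [hpp P _ h3]
    refine caseA hr hpr h3 hQ1 hT.isPGroup hQT hT.le (fun hc => ?_)
      (master hμ hr h3 hQ1 ih) P
    have h6 := hno _ _ h4 h3 hQ1
    rw [← hQ1.eq_of_le hQT hc hT.isPGroup, ← relIndex_mul_index hT.le] at h6
    refine ((Nat.Prime.dvd_mul hp.out).mp h6).elim hT.not_dvd fun h7 => ?_
    have h8 : normalizer (pc μ M : Set G) ⊔ N = ⊤ := eq_top_iff.mpr fun g _ => by
      obtain ⟨c, hc, e⟩ := wiel_eq (K := MulAut.conj g • pc μ M) h1 (fun x hx => by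
        rw [Solv.mem_conj_smul_iff] at hx
        simpa [mul_assoc] using Normal.conj_mem inferInstance _ (h1.1 hx) g) (card_smul _ _)
      rw [conj_smul_conj_smul, conj_smul_eq_iff] at e
      simpa using mul_mem (inv_mem (mem_sup_right hc)) (mem_sup_left e)
    rw [← relIndex_top_right, ← h8,
      relIndex_sup_eq_relIndex_of_le_normalizer le_normalizer_of_normal] at h7
    exact h2.2.2 p hp.out rfl
      (h7.trans (relIndex_dvd_of_le_left N (h5.trans (centralizer_le_normalizer _))))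
  by_cases hRG : R ≤ commutator G
  swap
  · obtain ⟨N, _, hN, hNi⟩ := exists_normal_of_not_le hR.1 hRG
    obtain ⟨M, hM, _⟩ := ihN N inferInstance hN
    have h1 : IsPiHallOf (μ : Set ℕ) (pc μ M) N :=
      isPiHallOf_trans (pc_hall _ M) hM.1 ((isPiHallOf_iff.mp hM).2.2.mono hsub1)
    have h2 : IsPiHall {p} (pc {p} M) := isPiHall_of_isPiHallOf
      (isPiHallOf_trans (pc_hall _ M) hM.1 ((isPiHallOf_iff.mp hM).2.2.mono hsub2)) (hNi.mono hsub4)
    have h2' : IsSylowOf p (pc {p} M) ⊤ :=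
      ⟨le_top, pc_isPGroup p M, by rw [relIndex_top_right]; exact h2.2 p hp.out rfl⟩
    obtain ⟨c, hc⟩ := SolvStr.wielandt_hall hR (K := pc μ M) h1.2.1
    have h3 := SolvStr.le_conj_inv_smul hc
    have hR' := isPiHall_smul hR (MulAut.conj c⁻¹)
    have hR'n : Group.IsNilpotent (MulAut.conj c⁻¹ • R : Subgroup G) := by
      rw [conj_smul_eq_map]; exact isNilpotent_map _ _
    generalize MulAut.conj c⁻¹ • R = R' at h3 hR' hR'n
    have := hcomm R' hR'n hR'.1
    have h4 : R' ≤ centralizer (pc μ M : Set G) :=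
      (le_cent_self R').trans (centralizer_le (SetLike.coe_subset_coe.mpr h3))
    set L := centralizer (pc μ M : Set G) ⊓ N
    have h5 : pc μ M ≤ L := le_inf (h3.trans h4) h1.1
    obtain ⟨K, hK, -, hK2⟩ := exists_complement_of_isPiHallOf (isPiHallOf_of_le h1 h5 inf_le_right)
      (inf_le_left.trans (centralizer_le_normalizer _))
    have hLK : L ≤ normalizer (K : Set G) := hK2 ▸ sup_le
      ((le_centralizer_iff.mp (hK.1.trans inf_le_left)).trans (centralizer_le_normalizer _))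
      le_normalizer
    have h6 : ∀ U ≤ L, IsPGroup p U → U ≤ pc (μ : Set ℕ)ᶜ L := fun U hU hUp =>
      (le_of_le_normalizer_isPiHallOf hK hU (hU.trans hLK)
        ((isPGroup_iff_piNum_singleton.mp hUp).mono hsub3)).trans (le_map_piCore hK.1 hLK hK.2.1)
    have hn1 : R' ≤ normalizer (pc (μ : Set ℕ)ᶜ L : Set G) :=
      (le_normalizer_inf (h4.trans le_normalizer) le_normalizer_of_normal).trans (norm_pc _ L)
    have hcop : (Nat.card R').Coprime (Nat.card (pc (μ : Set ℕ)ᶜ L)) :=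
      PiNum.coprime hR'.1 (piNum_card_map_piCore L)
    obtain ⟨P1, hP1, hRP⟩ := exists_invariant_isSylowOf R' _ hn1 hcop (Or.inl inferInstance) p
    have h7 := IsSylowOf.inf_centralizer R' _ hn1 hcop (Or.inl inferInstance) p hP1 hRP
    obtain ⟨k, -, e⟩ := (h2'.of_le (h6 _ (le_inf (le_centralizer_of_coprime_of_isNilpotent
      (pc_le _ M) (pc_le _ M) ((cop hr hpr hR' (pc_isPGroup p M)).coprime_dvd_right
        (card_dvd_of_le h3))) ((pc_le _ M).trans hM.1)) (pc_isPGroup p M)) le_top).conj hP1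
    have h8 : IsSylowOf p P1 ⊤ := e ▸ h2'.conj_smul (le_normalizer_of_normal (mem_top k))
    obtain ⟨P2, rfl⟩ := h8.exists_sylow_top
    obtain ⟨Q', hQ', hle⟩ := exists_isSylowOf_ge (K := centralizer (R' : Set G))
      (inf_le_right : (P2 : Subgroup G) ⊓ _ ≤ _) h7.isPGroup
    rw [h7.eq_of_le hle (le_inf (h6 _ (le_inf (hQ'.le.trans (centralizer_le
      (SetLike.coe_subset_coe.mpr h3))) (Solv.le_of_coprime_index
        ((isPGroup_iff_piNum_singleton.mp hQ'.isPGroup).coprime (hNi.mono hsub4)))) hQ'.isPGroup)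
      hQ'.le) hQ'.isPGroup] at hQ'
    refine h.not_ge ?_
    rw [hpp P2 _ hR']
    refine caseB hr hpr hR' hQ' P2 hRP inf_le_left (fun hc => ?_) (master hμ hr hR' hQ' ih P2)
    have h9 := hno _ _ hR'n hR' hQ'
    rw [inf_eq_left.mpr (le_centralizer_iff.mp hc)] at h9
    exact P2.not_dvd_index h9
  have h1 := hno R Q hRn hR hQ
  refine h.not_ge ?_
  rw [hpp P R hR]
  refine caseC hr hpr hR hQ hodd P (lt_of_le_of_ne hQP fun e => P.not_dvd_index (e ▸ h1))
    (fun e => ?_) hRG hPG (card_comm_le P (by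
      simpa using kp_big hs (a := 1) (Finset.mem_insert_self _ _) (by rwa [mul_one]) P))
    (master hμ hr hR hQ ih P)
  have h2 := hQ.not_dvd
  rw [e, show centralizer ((⊥ : Subgroup G) : Set G) = ⊤ by simpa using inf_cent_bot (⊤ : Subgroup G),
    relIndex_top_right] at h2
  exact h2 h1

/-- The form used in the statements. -/
theorem final (π : Set ℕ) (hπ : ∀ q ∈ π, q.Prime) (p : ℕ) (hp : p ∈ π) (hmin : ∀ q ∈ π, p ≤ q)
    (m : ℕ) (hm : m ∣ Nat.card G) (hmπ : ∀ q : ℕ, q.Prime → q ∣ m → q ∈ π)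
    (hm' : ∀ q ∈ π, ¬ q ∣ Nat.card G / m) (k : ℕ)
    (hk : k = Nat.card {C : ConjClasses G // ∀ q : ℕ, q.Prime →
      (∃ g : G, ConjClasses.mk g = C ∧ q ∣ orderOf g) → q ∈ π}) (hmany : m < p * k) :
    ∃ H : Subgroup G, Nat.card H = m ∧ Group.IsNilpotent H ∧ ∃ P : Sylow p G,
      Nat.card (commutator H) ≤ Nat.card (commutator (P : Subgroup G)) ∧
      ∀ a b : ℕ, m * a < b * k → Nat.card P * a < b * kp p G := by
  classical
  have := Fact.mk (hπ p hp)
  let s : Finset ℕ := (insert p (Nat.card G).primeFactors).filter (· ∈ π)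
  have hs : ∀ q ∈ s, q ∈ π := fun q hq => (Finset.mem_filter.mp hq).2
  have hs' : ∀ q ∈ s, q.Prime := fun q hq => hπ q (hs q hq)
  have hs2 : ∀ q : ℕ, q.Prime → q ∣ Nat.card G → q ∈ π → q ∈ s := fun q hq hd h =>
    Finset.mem_filter.mpr ⟨Finset.mem_insert_of_mem
      (Nat.mem_primeFactors.mpr ⟨hq, hd, Nat.card_pos.ne'⟩), h⟩
  have hps : p ∈ s := Finset.mem_filter.mpr ⟨Finset.mem_insert_self _ _, hp⟩
  have e1 : k = kpi s G := by
    refine Nat.eq_of_mul_eq_mul_right (Nat.card_pos (α := G)) ?_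
    rw [hk, card_piClasses_mul, kpi_mul_card]
    congr 1
    ext x
    exact ⟨fun h q hq hd => hs2 q hq (hd.trans (orderOf_dvd_natCard x)) (h q hq hd),
      fun h q hq hd => hs q (h q hq hd)⟩
  have e2 : m = pp s (Nat.card G) := by
    obtain ⟨c, hc⟩ := hm
    have h0 : m * c ≠ 0 := hc ▸ Nat.card_pos.ne'
    rw [hc, Nat.mul_div_cancel_left _ (Nat.pos_of_ne_zero (left_ne_zero_of_mul h0))] at hm'
    rw [hc, pp_mul s (left_ne_zero_of_mul h0) (right_ne_zero_of_mul h0),
      pp_eq_self (left_ne_zero_of_mul h0) fun q hq hd =>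
        hs2 q hq (hc ▸ hd.mul_right c) (hmπ q hq hd),
      pp_eq_one hs' fun q _ hd h => hm' q (hs q h) hd, mul_one]
  subst e1 e2
  obtain ⟨H, hH, hHn⟩ := hall_aux _ G rfl s hs' p (fun q hq => hmin q (hs q hq)) hmany
  obtain ⟨P, hP⟩ := (pc_isPGroup p H).exists_le_sylow
  refine ⟨H, card_hall hs' hH, hHn, P, ?_, fun a b h => kp_big hs' hps h P⟩
  have h1 : Group.IsNilpotent (pc {p}ᶜ H) := isNilpotent_of_le (pc_le _ H)
  have h2 : IsMulCommutative (pc {p}ᶜ H) := comm_of_nil (π := (s : Set ℕ) \ {p})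
    (fun q hq hd => ⟨hH.1 q hq (hd.trans (card_dvd_of_le (pc_le _ H))),
      piNum_card_map_piCore H q hq hd⟩)
    fun q hq _ Q => sylow_comm hs' hq.1 (lt_of_le_of_ne (hmin q (hs q hq.1)) (Ne.symm hq.2)) hmany Q
  have h3 : pc {p} H ≤ centralizer (pc {p}ᶜ H : Set G) := le_centralizer_of_coprime_of_isNilpotent
    (pc_le _ H) (pc_le _ H) (pc_coprime H (pc_isPGroup p H)).symm
  have h4 : H ≤ centralizer (pc {p}ᶜ H : Set G) :=
    (pc_sup {p} H).ge.trans (sup_le h3 (le_cent_self _))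
  rw [← card_map_of_injective H.subtype_injective, map_subtype_commutator,
    ← card_map_of_injective (P : Subgroup G).subtype_injective, map_subtype_commutator]
  refine card_le_of_le (commutator_le.mpr fun x hx y hy => ?_)
  obtain ⟨a, ha, b, hb, rfl⟩ := (mem_sup_of_le_normalizer
    (h3.trans (centralizer_le_normalizer _))).mp ((pc_sup {p} H).ge hx)
  obtain ⟨c, hc, d, hd, rfl⟩ := (mem_sup_of_le_normalizer
    (h3.trans (centralizer_le_normalizer _))).mp ((pc_sup {p} H).ge hy)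
  have k1 := mem_centralizer_iff.mp (h4 hy) b hb
  have k2 := mem_centralizer_iff.mp (h3 (inv_mem ha)) d hd
  have : ⁅a * b, c * d⁆ = ⁅a, c⁆ := by
    rw [commutatorElement_def, commutatorElement_def]
    calc a * b * (c * d) * (a * b)⁻¹ * (c * d)⁻¹ =
        a * (b * (c * d)) * b⁻¹ * a⁻¹ * (c * d)⁻¹ := by group
      _ = a * c * (d * a⁻¹) * d⁻¹ * c⁻¹ := by rw [k1]; group
      _ = _ := by rw [k2]; group
  rw [this]
  exact commutator_mem_commutator (hP ha) (hP hc)

end CF.KPi
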